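import Cfsg.Agent.StdU.GlA
import Cfsg.Agent.Mult.UMain
import Cfsg.Agent.Mult.SporGen

/-! The split case `θ^q = θ`. `X₁ = XX θ`, `X₂ = XX (θ + 1) = t X₁ t` (`yy_tr`), both symmetric in
`u, w`; `z₁ v = X₁ v (ω v) = c v ι (T v θ)` (`c_eq`), `z₂ v = t z₁ v t`, `z₁ v z₂ v = ι (T v 1)`. By `act_X` (for `θ` and for
`θ + 1`) and `XX_eqv`: if `x ⊥ u, w` then `Xᵢ f x` acts on `Xᵢ u w` as `S f x` (`u ↦ u + h u f x`) and centralises
`Xⱼ u w`, `j ≠ i`. `z₁ v` commutes with `z₂ v'`: clear if `v ⊥ v'`; else take a hyperbolic pair `x, x*` in `⟨v,v'⟩^⊥`,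
`x₁ = x* + a v` with `h v' x₁ = 1`, `f = v' + x`; `z₂ v' = X₂ x₁ f * z₂ x * X₂ x₁ f`, `X₂ x₁ f = X₂ f x₁` and `z₂ x`
centralise `z₁ v`. So `L₁ = ⟨z₁ v⟩` commutes with `t L₁ t`. `Γ = ⟨(T v 1, z₁ v)⟩ ≤ SU × G`; for `(g, l) ∈ Γ`: `l ∈ L₁` and
`ι g = l (t l t)` (closure induction), so `l z₁ v l⁻¹ = ι g z₁ v (ι g)⁻¹ = z₁ (g v)`. The first projection is onto
(`closure_T`) with central kernel (`l = (t l t)⁻¹ ∈ L₁ ⊓ t L₁ t`); `Γ` is perfect: the generators are conjugate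
involutions with a product of five equal to `1` (`five`, `c_five`). `Mult.mcard_SU`, `exists_lift` give a section
`ψ : SU → Γ`; it is onto (`Γ = ψ(SU) ker`, `Γ` perfect), so the kernel is trivial and `ψ (T v 1) = (T v 1, z₁ v)`. -/

set_option autoImplicit false
set_option linter.unusedSectionVars false

namespace Cfsg.Agent.StdU

open Subgroup Cfsg.Agent.Class.U Cfsg.Agent.KSG Cfsg.Agent.PLocal.Amb
open Cfsg.Agent.StdL (El Od Uq cjh)
open scoped commutatorElement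

variable {F : Type*} [Field F] {m q : ℕ} [UF F q] [CharP F 2]
  {G : Type*} [Group G] [Finite G] {ι r : SU m F q →* G} {t : G} {c : (Fin m → F) → G}

local notation "𝐡" => hermForm m F q

variable {d θ φ ψ ω : F} {u w v v' f x : Fin m → F}

/-- `c v ι (T v θ)` -/
noncomputable def spz (ι : SU m F q →* G) (c : (Fin m → F) → G) (θ : F) (v : Fin m → F) : G :=
  c v * ι (T q v θ)

theorem sp_one (hθ' : θ ^ q = θ) : (θ + 1) ^ q = θ + 1 := by rw [lA_add_pow, hθ', one_pow]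

theorem sp_fix (hv : 𝐡 v v = 0) (ha : θ ^ q = θ) (e : 𝐡 u v = 0) : T q v θ • u = u := by
  rw [T_smul hv ha, e, mul_zero, zero_smul, add_zero]

theorem Fam.sp_symm (h : Fam ι t c) (hθ' : θ ^ q = θ) (e : O2 q u w) :
    XX ι c θ u w = XX ι c θ w u := by
  have e1 : O2 q u (θ • w) := by simpa using e.smul 1 θ
  rw [XX, XX, hθ', S_symm e1, S_smul_left e.symm, hθ', yy_symm h e]

theorem Fam.sp_eq (h : Fam ι t c) (hθ' : θ ^ q = θ) (hω : ω + ω ^ q = 1) (hv : 𝐡 v v = 0) :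
    spz ι c θ v = XX ι c θ v (ω • v) := by
  rw [XX, spz, ← h.c_eq hv hω, smul_smul, S_self hv, mul_pow, hθ', hθ', ← mul_add, hω, mul_one,
    h.cen hv (sp_fix hv hθ' hv)]

theorem Fam.sp_t (h : Fam ι t c) (hθ' : θ ^ q = θ) (hv : 𝐡 v v = 0) :
    t * spz ι c θ v * t = spz ι c (θ + 1) v := by
  have e1 : t * c v * t = ι (T q v 1) * c v := by
    calc t * c v * t = t * (c v * t * c v) * c v := by
          rw [mul_assoc t (c v * t * c v), mul_assoc _ (c v) (c v), h.sq v hv, mul_one, mul_assoc]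
      _ = _ := by rw [h.tr v hv, ← mul_assoc, h.tt, one_mul]
  rw [spz, spz, mul_assoc, mul_assoc, ← h.tc, ← mul_assoc, ← mul_assoc, e1,
    h.cen hv (sp_fix hv (one_pow q) hv), mul_assoc, ← map_mul, T_add hv (one_pow q) hθ', add_comm]

theorem Fam.sp_prod (h : Fam ι t c) (hθ' : θ ^ q = θ) (hv : 𝐡 v v = 0) :
    spz ι c θ v * spz ι c (θ + 1) v = ι (T q v 1) := by
  rw [spz, spz, mul_assoc, ← mul_assoc (ι _), h.cen hv (sp_fix hv hθ' hv), ← mul_assoc, ← mul_assoc,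
    h.sq v hv, one_mul, ← map_mul, T_add hv hθ' (sp_one hθ'), ← add_assoc, CharTwo.add_self_eq_zero,
    zero_add]

theorem Fam.sp_mem (hθ' : θ ^ q = θ) {W : Submodule F (Fin m → F)} (hv : 𝐡 v v = 0)
    (hW : v ∈ W) : spz ι c θ v ∈ Vh ι c W :=
  mul_mem (c_mem_Vh hW) (map_mem_Vh (T_mem_VW hv hθ' hW))

theorem Fam.sp_sq (h : Fam ι t c) (hθ' : θ ^ q = θ) (hv : 𝐡 v v = 0) :
    spz ι c θ v * spz ι c θ v = 1 :=
  h.el_Vh (hat_ti hv) _ (Fam.sp_mem hθ' hv (Submodule.mem_span_singleton_self v))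

theorem Fam.sp_eqv (h : Fam ι t c) (hθ' : θ ^ q = θ) (hv : 𝐡 v v = 0) (g : SU m F q) :
    ι g * spz ι c θ v * (ι g)⁻¹ = spz ι c θ (g • v) := by
  rw [spz, spz, ← h.eqv g v hv, ← T_conj hv hθ', map_mul, map_mul, map_inv]; group

theorem Fam.sp_com0 (h : Fam ι t c) (hφ : φ ^ q = φ) (hψ : ψ ^ q = ψ) (e : O2 q u w) :
    Commute (spz ι c φ u) (spz ι c ψ w) :=
  (h.el_Vh e.ti).comm (Fam.sp_mem hφ e.l hat_l) (Fam.sp_mem hψ e.r hat_r)

theorem Fam.sp_five (h : Fam ι t c) (hθ' : θ ^ q = θ) (hω : ω + ω ^ q = 1) (e : O2 q u w) :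
    spz ι c θ u * spz ι c θ w * spz ι c θ (u + w) * spz ι c θ (u + ω • w) *
      spz ι c θ (u + ω ^ q • w) = 1 := by
  have hA := h.el_Vh e.ti
  have m1 : ∀ a : F, u + a • w ∈ Submodule.span F {u, w} := fun a =>
    add_mem hat_l (Submodule.smul_mem _ a hat_r)
  have m0 : u + w ∈ Submodule.span F {u, w} := add_mem hat_l hat_r
  have mT : ∀ v ∈ Submodule.span F {u, w}, ι (T q v θ) ∈ Vh ι c (Submodule.span F {u, w}) :=
    fun v hv => map_mem_Vh (T_mem_VW (e.ti v hv v hv) hθ' hv)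
  have a1 := mT _ hat_l
  have a2 := mul_mem a1 (mT _ hat_r)
  have a3 := mul_mem a2 (mT _ m0)
  have a4 := mul_mem a3 (mT _ (m1 ω))
  simp only [spz]
  rw [hat_mm hA a1 (c_mem_Vh hat_r), hat_mm hA a2 (c_mem_Vh m0), hat_mm hA a3 (c_mem_Vh (m1 _)),
    hat_mm hA a4 (c_mem_Vh (m1 _)), h.c_five e hω, one_mul, ← map_mul, ← map_mul, ← map_mul,
    ← map_mul, five e hω hθ', map_one]

theorem Ac.sp_conj (h : Ac ι t c d) (hφ : φ ^ q = φ) (hψ : ψ * ψ + ψ = d) (hψ' : ψ ^ q = ψ)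
    (e1 : O2 q f x) (e2 : O2 q x u) (e3 : O2 q x w) (e4 : O2 q u w) :
    XX ι c φ f x * XX ι c ψ u w * (XX ι c φ f x)⁻¹ =
      XX ι c ψ (u + ((ψ + 1 + φ) * 𝐡 u f) • x) (w + ((ψ + 1 + φ) * 𝐡 w f) • x) := by
  have a1 := h.act_X hψ e1 e2 e3 e4
  have e5 : O2 q f (φ • x) := by simpa using e1.smul 1 φ
  have o : ∀ a b : F, O2 q (u + a • x) (w + b • x) := fun a b =>
    ⟨by simpa using e2.symm.iso 1 a, by simpa using e3.symm.iso 1 b, by
      rw [herm_add_left, herm_add_right, herm_add_right, herm_smul_left, herm_smul_left,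
        herm_smul_r, herm_smul_r, e4.lr, e2.rl, e3.lr, e1.r]; simp⟩
  have s : ∀ y, O2 q x y → S q f (φ • x) • (y + ((ψ + 1) * 𝐡 y f) • x) =
      y + ((ψ + 1 + φ) * 𝐡 y f) • x := fun y e => by
    rw [S_smul e5, herm_add_left, herm_add_left, herm_smul_left, herm_smul_left, herm_smul_r,
      herm_smul_r, e.rl, e1.r, e1.rl]
    module
  rw [hψ'] at a1
  rw [← s u e2, ← s w e3, ← h.XX_eqv (o _ _), ← a1, XX, hφ, mul_inv_rev,
    inv_eq_of_mul_eq_one_right (h.yy_sq e1)]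
  group

theorem Ac.sp_com (h : Ac ι t c d) (hθ : θ * θ + θ = d) (hθ' : θ ^ q = θ) (hv : 𝐡 v v = 0)
    (hv' : 𝐡 v' v' = 0) : Commute (spz ι c θ v) (spz ι c (θ + 1) v') := by
  by_cases e : 𝐡 v v' = 0
  · exact h.sp_com0 hθ' (sp_one hθ') ⟨hv, hv', e⟩
  have e' : 𝐡 v' v ≠ 0 := by rw [← herm_pow]; exact lA_pow_ne e
  obtain ⟨ω, hω⟩ := exists_om (F := F) (q := q)
  have hθ1 : (θ + 1) * (θ + 1) + (θ + 1) = d := by
    rw [← hθ]; linear_combination (θ + 1) * CharTwo.two_eq_zero (R := F)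
  obtain ⟨y, y1, y2, y3⟩ := exists_iso_perp (hat_ti hv) (by
    have := h.m6
    have := finrank_span_singleton (K := F) (v := v) (by rintro rfl; exact e (herm_zero_left _))
    omega)
  have y4 : 𝐡 y v = 0 := y1 v (Submodule.mem_span_singleton_self v)
  have oy : O2 q y v := ⟨y3, hv, y4⟩
  obtain ⟨x, hx⟩ : ∃ x, x = y + (𝐡 y v' / 𝐡 v v') • v := ⟨_, rfl⟩
  have x0 : 𝐡 x x = 0 := by simpa [hx] using oy.iso 1 (𝐡 y v' / 𝐡 v v')
  have x1 : 𝐡 x v = 0 := by rw [hx, herm_add_left, herm_smul_left, hv, y4]; simp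
  have x2 : 𝐡 x v' = 0 := by
    rw [hx, herm_add_left, herm_smul_left, div_mul_cancel₀ _ e, CharTwo.add_self_eq_zero]
  obtain ⟨x', z1, z2, z3⟩ := dual (U := Submodule.span F {v, v'}) x0
    (mem_perp_span.2 (by simp [x1, x2])) (fun a => by
      obtain ⟨α, β, a⟩ := Submodule.mem_span_pair.1 a
      have b := x1
      rw [← a, herm_add_left, herm_smul_left, herm_smul_left, hv, mul_zero, zero_add] at b
      rw [(mul_eq_zero.1 b).resolve_right e', zero_smul, add_zero, hx] at a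
      apply y2
      rw [← sub_eq_iff_eq_add.2 a]
      exact sub_mem (Submodule.smul_mem _ _ (Submodule.mem_span_singleton_self v))
        (Submodule.smul_mem _ _ (Submodule.mem_span_singleton_self v)))
  have z4 : 𝐡 x' v = 0 := z1 v hat_l
  have z5 : 𝐡 x' v' = 0 := z1 v' hat_r
  have oz : O2 q x' v := ⟨z2, hv, z4⟩
  have oz' : O2 q x' v' := ⟨z2, hv', z5⟩
  have ox : O2 q x v := ⟨x0, hv, x1⟩
  have ox' : O2 q x v' := ⟨x0, hv', x2⟩
  obtain ⟨x₁, hx₁⟩ : ∃ x₁, x₁ = x' + (𝐡 v v')⁻¹ • v := ⟨_, rfl⟩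
  have w0 : 𝐡 x₁ x₁ = 0 := by simpa [hx₁] using oz.iso 1 (𝐡 v v')⁻¹
  have w1 : 𝐡 v' x₁ = 1 := by
    rw [hx₁, herm_add_right, herm_smul_r, oz'.rl, zero_add, inv_pow, herm_pow, inv_mul_cancel₀ e']
  have w2 : 𝐡 x x₁ = 1 := by rw [hx₁, herm_add_right, herm_smul_r, z3, x1]; simp
  have w3 : O2 q x₁ v := ⟨w0, hv, by rw [hx₁, herm_add_left, herm_smul_left, z4, hv]; simp⟩
  have f0 : 𝐡 (v' + x) (v' + x) = 0 := by simpa using ox'.symm.iso 1 1
  have f1 : O2 q (v' + x) x₁ := ⟨f0, w0, by rw [herm_add_left, w1, w2, CharTwo.add_self_eq_zero]⟩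
  have f2 : O2 q (v' + x) x := ⟨f0, x0, by rw [herm_add_left, ox'.rl, x0, add_zero]⟩
  have k1 := h.sp_conj (sp_one hθ') hθ1 (sp_one hθ') f1.symm f2
    (by simpa using f2.smul 1 ω) (by simpa using (O2.self x0).smul 1 ω)
  have k2 := h.sp_conj (sp_one hθ') hθ hθ' f1 w3
    (by simpa using w3.smul 1 ω) (by simpa using (O2.self hv).smul 1 ω)
  have c1 : θ + 1 + 1 + (θ + 1) = 1 := by
    linear_combination (θ + 1) * CharTwo.two_eq_zero (R := F)
  have c2 : x + (v' + x) = v' := by rw [add_comm v', ← add_assoc, lA_add_self, zero_add]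
  rw [c1, herm_smul_left, w2, mul_one, one_mul, one_smul, mul_one, ← smul_add, c2,
    ← h.sp_eq (sp_one hθ') hω x0, ← h.sp_eq (sp_one hθ') hω hv'] at k1
  rw [CharTwo.add_self_eq_zero, zero_mul, zero_mul, zero_smul, add_zero, add_zero,
    ← h.sp_eq hθ' hω hv, h.sp_symm (sp_one hθ') f1] at k2
  have k3 : Commute (spz ι c θ v) (XX ι c (θ + 1) x₁ (v' + x)) := (mul_inv_eq_iff_eq_mul.1 k2).symm
  rw [← k1]
  exact (k3.mul_right (h.sp_com0 hθ' (sp_one hθ') ox.symm)).mul_right k3.inv_right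

theorem Ac.spl {d θ : F} (h : Ac ι t c d) (hθ : θ * θ + θ = d) (hθ' : θ ^ q = θ) :
    ∃ r, Spl ι t c θ r := by
  have : Finite (SU m F q) := au_fin
  have m6 := h.m6
  have ti : t⁻¹ = t := inv_eq_of_mul_eq_one_right h.tt
  let L : Subgroup G := closure {g | ∃ v, 𝐡 v v = 0 ∧ g = spz ι c θ v}
  have mL : ∀ v, 𝐡 v v = 0 → spz ι c θ v ∈ L := fun v hv => subset_closure ⟨v, hv, rfl⟩
  have cL : ∀ a ∈ L, ∀ b ∈ L, Commute a (t * b * t) := fun a ha b hb => by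
    have h1 : L ≤ centralizer {t * b * t} := (closure_le _).2 (by
      rintro _ ⟨v, hv, rfl⟩
      have h2 : L ≤ centralizer {t * spz ι c θ v * t} := (closure_le _).2 (by
        rintro _ ⟨v', hv', rfl⟩
        rw [SetLike.mem_coe, mem_centralizer_singleton_iff, h.sp_t hθ' hv]
        exact h.sp_com hθ hθ' hv' hv)
      have h3 := mem_centralizer_singleton_iff.1 (h2 hb)
      rw [SetLike.mem_coe, mem_centralizer_singleton_iff]
      calc _ = t * (t * spz ι c θ v * t * b) * t := by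
            rw [← mul_assoc, ← mul_assoc, ← mul_assoc, ← mul_assoc, ← mul_assoc, h.tt, one_mul]
        _ = _ := by
            rw [← h3, mul_assoc t (b * _), mul_assoc b, mul_assoc _ t t, h.tt, mul_one]; group)
    exact mem_centralizer_singleton_iff.1 (h1 ha)
  have tm : ∀ a b : G, t * (a * b) * t = t * a * t * (t * b * t) := fun a b => by
    rw [mul_assoc (t * a) t, ← mul_assoc t (t * b), ← mul_assoc t t, h.tt]; group
  let Δ : Subgroup (SU m F q × G) :=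
    { carrier := {p | p.2 ∈ L ∧ ι p.1 = p.2 * (t * p.2 * t)}
      one_mem' := ⟨one_mem L, by simp [h.tt]⟩
      mul_mem' := fun {a b} ha hb => ⟨mul_mem ha.1 hb.1, by
        rw [Prod.fst_mul, Prod.snd_mul, map_mul, ha.2, hb.2, tm,
          (cL _ hb.1 _ ha.1).symm.mul_mul_mul_comm]⟩
      inv_mem' := fun {a} ha => ⟨inv_mem ha.1, by
        rw [Prod.fst_inv, Prod.snd_inv, map_inv, ha.2, (cL _ ha.1 _ ha.1).eq, mul_inv_rev,
          mul_inv_rev, mul_inv_rev, ti, mul_assoc t]⟩ }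
  have mΔ : ∀ v, 𝐡 v v = 0 → (T q v 1, spz ι c θ v) ∈ Δ := fun v hv =>
    ⟨mL v hv, by rw [h.sp_t hθ' hv, h.sp_prod hθ' hv]⟩
  have kc : ∀ p ∈ Δ, p.1 = 1 → ∀ a ∈ L, Commute a p.2 := fun p hp e a ha => by
    have e1 := hp.2
    rw [e, map_one] at e1
    rw [eq_inv_of_mul_eq_one_left e1.symm]
    exact (cL a ha _ hp.1).inv_right
  let π : Δ →* SU m F q := (MonoidHom.fst _ _).comp Δ.subtype
  obtain ⟨ψ, hψ⟩ := Mult.Cov.exists_lift (G := SU m F q) (commutator_eq_top (by omega) (by omega))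
    (Mult.mcard_SU (by omega) (by omega) (by omega) h.q2) (σ := π)
    (fun p hp => Subgroup.mem_center_iff.2 fun a => Subtype.ext (Prod.ext
      (by
        have e : p.1.1 = 1 := hp
        change a.1.1 * p.1.1 = p.1.1 * a.1.1
        rw [e, mul_one, one_mul])
      (kc p.1 p.2 hp _ a.2.1)))
    (MonoidHom.id _) (fun g _ => h.mem_of_T (H := π.range) (fun v hv => ⟨⟨_, mΔ v hv⟩, rfl⟩) g)
  have e1 : ∀ g, (ψ g).1.1 = g := fun g => DFunLike.congr_fun hψ g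
  let r : SU m F q →* G := ((MonoidHom.snd _ _).comp Δ.subtype).comp ψ
  have rL : ∀ g, r g ∈ L := fun g => (ψ g).2.1
  have dec : ∀ g, ι g = r g * (t * r g * t) := fun g => by
    have := (ψ g).2.2
    rwa [e1] at this
  refine ⟨r, h.toFam, hθ', fun g g' => cL _ (rL g) _ (rL g'), dec, ?_⟩
  obtain ⟨k, hk⟩ : ∃ k : (Fin m → F) → G, ∀ v, spz ι c θ v = r (T q v 1) * k v :=
    ⟨fun v => (r (T q v 1))⁻¹ * spz ι c θ v, fun v => by group⟩
  have k1 : ∀ v, 𝐡 v v = 0 → ∀ a ∈ L, Commute a (k v) := fun v hv a ha => by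
    have := kc _ (mul_mem (inv_mem (ψ (T q v 1)).2) (mΔ v hv)) (by simp [e1]) a ha
    rwa [Prod.snd_mul, Prod.snd_inv, hk, show (ψ (T q v 1)).1.2 = r (T q v 1) from rfl,
      inv_mul_cancel_left] at this
  have k2 : ∀ v, 𝐡 v v = 0 → ∀ g : SU m F q, k (g • v) = k v := fun v hv g => by
    have a1 := h.sp_eqv hθ' hv g
    rw [dec, mul_assoc (r g), ← (cL _ (mL v hv) _ (rL g)).eq, mul_inv_rev, hk, hk,
      ← T_conj hv (one_pow q), map_mul, map_mul, map_inv] at a1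
    have a2 := (k1 v hv _ (inv_mem (rL g))).eq
    apply mul_left_cancel (a := r g * r (T q v 1) * (r g)⁻¹)
    rw [← a1, mul_assoc _ (r g)⁻¹, a2]; group
  have k3 : ∀ u v, 𝐡 u u = 0 → 𝐡 v v = 0 → u ≠ 0 → v ≠ 0 → k u = k v := fun u v hu hv u0 v0 => by
    obtain ⟨W, hW, a⟩ := (hat_ti hu).exists_MTI
    obtain ⟨W', hW', b⟩ := (hat_ti hv).exists_MTI
    obtain ⟨g, -, rfl⟩ := hW.trans_vec (by omega) hW' (a (Submodule.mem_span_singleton_self u))
      (b (Submodule.mem_span_singleton_self v)) u0 v0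
    exact (k2 u hu g).symm
  intro v hv
  change _ = spz ι c θ v
  by_cases v0 : v = 0
  · rw [v0, spz, T_zero_vec, T_zero_vec, h.c0, map_one, map_one, mul_one]
  obtain ⟨ω, hω⟩ := exists_om (F := F) (q := q)
  obtain ⟨u, y1, y2, y3⟩ := exists_iso_perp (hat_ti hv) (by
    have := finrank_span_singleton (K := F) v0
    omega)
  have o : O2 q u v := ⟨y3, hv, y1 v (Submodule.mem_span_singleton_self v)⟩
  have n : ∀ a : F, k (u + a • v) = k v := fun a =>
    k3 _ _ (by simpa using o.iso 1 a) hv (fun e => y2 (by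
      rw [lA_add_eq_zero.1 e]
      exact Submodule.smul_mem _ _ (Submodule.mem_span_singleton_self v))) v0
  have n0 := n 0
  have n1 := n 1
  rw [zero_smul, add_zero] at n0
  rw [one_smul] at n1
  have f5 := h.sp_five hθ' hω o
  have f2 := h.sp_sq hθ' hv
  have cm : ∀ (g g' : SU m F q) (i : ℕ), r g * k v ^ i * (r g' * k v) = r (g * g') * k v ^ (i + 1) :=
    fun g g' i => by
      rw [((k1 v hv _ (rL g')).symm.pow_left i).mul_mul_mul_comm, map_mul, pow_succ]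
  simp only [hk, n, n0, n1] at f5 f2
  have cm1 : ∀ g g' : SU m F q, r g * k v * (r g' * k v) = r (g * g') * k v ^ 2 :=
    fun g g' => by simpa using cm g g' 1
  rw [cm1, T_sq hv (one_pow q), map_one, one_mul] at f2
  rw [cm1, cm, cm, cm, five o hω (one_pow q), map_one, one_mul, pow_succ, pow_succ, pow_succ, f2,
    one_mul, ← sq, f2, one_mul] at f5
  rw [hk, f5, mul_one]

end Cfsg.Agent.StdU
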